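import Cfsg.Agent.L34.Subgroups

/-!
Complements in normalisers of preimages in central extensions of `PSL(3, 4)`.
-/

set_option autoImplicit false

namespace CfsgLib.L34

section Matrices

variable {F : Type*} [Field F] [Fintype F]

/-- The complement in the normaliser of the preimage. -/
theorem split_normalizer {X : Type*} [Group X] [Finite X]
    (f : X →* Matrix.ProjectiveSpecialLinearGroup (Fin 3) F) (hf : Function.Surjective f)
    (hker : f.ker = Subgroup.center X)
    (A B : Subgroup (Matrix.ProjectiveSpecialLinearGroup (Fin 3) F)) (hd : HasComplementData A B)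
    (hB2 : ∀ b ∈ B.comap f, b * b = 1) :
    ∃ C : Subgroup X, C ≤ Subgroup.normalizer ((A.comap f : Subgroup X) : Set X) ∧ C ⊓ A.comap f = ⊥ ∧
      A.comap f ⊔ C = Subgroup.normalizer ((A.comap f : Subgroup X) : Set X) ∧
      Nonempty (↥C ≃* Matrix.ProjectiveSpecialLinearGroup (Fin 2) F) := by
  classical
  obtain ⟨-, -, S, ⟨eS⟩, hnorm, hdis, hN, -, V, hVS, hVB, hodd⟩ := hd
  let S' := S.comap f
  let Z : Subgroup ↥S' := f.ker.subgroupOf S'
  let P : Subgroup ↥S' := (V.comap f).subgroupOf S'
  obtain ⟨C₀, hC₀, hC₀g⟩ := split_central Z P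
    (fun z hz => Subgroup.mem_center_iff.2 fun g => Subtype.ext
      (Subgroup.mem_center_iff.1 (show (z : X) ∈ Subgroup.center X by rw [← hker]; exact hz) g))
    (fun z hz => by
      show f z ∈ V
      rw [show f z = 1 from hz]
      exact V.one_mem)
    (fun a ha => Subtype.ext (hB2 (a : X) (hVB ha)))
    (by
      show Odd ((V.comap f).relIndex S')
      rw [Subgroup.relIndex_comap, Subgroup.map_comap_eq_self_of_surjective hf]
      exact hodd)
  refine ⟨C₀.map S'.subtype, ?_, ?_, ?_, ?_⟩
  · rintro _ ⟨c, -, rfl⟩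
    rw [Subgroup.mem_normalizer_iff]
    intro a
    constructor
    · intro ha
      show f ((c : X) * a * (c : X)⁻¹) ∈ A
      rw [map_mul, map_mul, map_inv]
      exact hnorm _ c.2 _ ha
    · intro ha
      change f ((c : X) * a * (c : X)⁻¹) ∈ A at ha
      rw [map_mul, map_mul, map_inv] at ha
      have := hnorm _ (S.inv_mem c.2) _ ha
      rw [inv_inv, show (f (c : X))⁻¹ * (f (c : X) * f a * (f (c : X))⁻¹) * f (c : X) = f a by group] at this
      exact this
  · rw [eq_bot_iff]
    rintro _ ⟨⟨c, hc, rfl⟩, hcA⟩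
    have h1 : f (c : X) = 1 := hdis _ hcA c.2
    have : c ∈ C₀ ⊓ Z := ⟨hc, h1⟩
    rw [hC₀, Subgroup.mem_bot] at this
    rw [this]; exact Subgroup.one_mem _
  · apply le_antisymm
    · refine sup_le Subgroup.le_normalizer ?_
      rintro _ ⟨c, -, rfl⟩
      rw [Subgroup.mem_normalizer_iff]
      intro a
      constructor
      · intro ha
        show f ((c : X) * a * (c : X)⁻¹) ∈ A
        rw [map_mul, map_mul, map_inv]
        exact hnorm _ c.2 _ ha
      · intro ha
        change f ((c : X) * a * (c : X)⁻¹) ∈ A at ha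
        rw [map_mul, map_mul, map_inv] at ha
        have := hnorm _ (S.inv_mem c.2) _ ha
        rw [inv_inv, show (f (c : X))⁻¹ * (f (c : X) * f a * (f (c : X))⁻¹) * f (c : X) = f a by group] at this
        exact this
    · intro x hx
      obtain ⟨s, hs, a, ha, hsa⟩ := hN (f x) (by
        intro a ha
        obtain ⟨a, rfl⟩ := hf a
        have := (Subgroup.mem_normalizer_iff.1 hx a).1 ha
        change f (x * a * x⁻¹) ∈ A at this
        rwa [map_mul, map_mul, map_inv] at this)
      obtain ⟨s, rfl⟩ := hf s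
      obtain ⟨c, hc, z, hz, hcz⟩ := hC₀g ⟨s, hs⟩
      have hfs : f s = f (c : X) := by
        have h := congrArg (fun q : ↥S' => f (q : X)) hcz
        simp only [Subgroup.coe_mul, map_mul, show f (z : X) = 1 from hz, mul_one] at h
        exact h
      have hmem : (c : X)⁻¹ * x ∈ A.comap f := by
        show f ((c : X)⁻¹ * x) ∈ A
        rw [map_mul, map_inv, ← hfs, hsa, inv_mul_cancel_left]
        exact ha
      rw [← mul_inv_cancel_left (c : X) x]
      exact Subgroup.mul_mem _ (Subgroup.mem_sup_right ⟨c, hc, rfl⟩) (Subgroup.mem_sup_left hmem)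
  · let φ : C₀ →* S :=
      { toFun := fun c => ⟨f ((c : ↥S') : X), (c : ↥S').2⟩
        map_one' := Subtype.ext (map_one f)
        map_mul' := fun a b => Subtype.ext (map_mul f _ _) }
    have hφ : Function.Bijective φ := by
      refine ⟨?_, ?_⟩
      · rw [injective_iff_map_eq_one]
        intro c hc
        have : (c : ↥S') ∈ C₀ ⊓ Z := ⟨c.2, congrArg Subtype.val hc⟩
        rw [hC₀, Subgroup.mem_bot] at this
        exact Subtype.ext this
      · rintro ⟨s, hs⟩
        obtain ⟨s, rfl⟩ := hf s
        obtain ⟨c, hc, z, hz, hcz⟩ := hC₀g ⟨s, hs⟩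
        refine ⟨⟨c, hc⟩, Subtype.ext ?_⟩
        have h := congrArg (fun q : ↥S' => f (q : X)) hcz
        simp only [Subgroup.coe_mul, map_mul, show f (z : X) = 1 from hz, mul_one] at h
        exact h.symm
    exact ⟨((C₀.equivMapOfInjective S'.subtype S'.subtype_injective).symm.trans
      (MulEquiv.ofBijective φ hφ)).trans eS⟩

end Matrices



end CfsgLib.L34
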